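import Cfsg.Agent.H217.Odm.Eng
import Cfsg.Agent.H257.El.Row.J4

/-!
# TEAM ODDM (S4785): the fourth Janko group (helper234, task 3118)
-/

set_option autoImplicit false

namespace Cfsg.Agent.H234.OdmJ4

open Cfsg Subgroup Cfsg.Agent.OrdDiv Cfsg.Agent.H278.El Cfsg.Agent.H453.OddM Cfsg.Agent.H217.Odm

universe u

theorem row (tab : Cfsg.Agent.OrdDiv.OrderTable.{u}) (known : Cfsg.Agent.H257.El.Known.{u}) {T : Type u} [Group T]
    (h : Cfsg.Spor.IsoJ4 T) : Cfsg.Agent.H453.OddM.Row T := by
  have hc := NotCT.Orders.j4 h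
  have hJ := H337.isOfJankoFourType_of_isoJ4 h
  obtain ⟨e⟩ := h
  have : Finite T := Nat.finite_of_card_ne_zero (by rw [hc]; norm_num)
  have hs : IsSimpleGroup T := e.isSimpleGroup_congr.2 Cfsg.Agent.S1703.result.1
  have hna : ¬ IsMulCommutative T := by
    intro hm
    let _ : CommGroup T := { (inferInstance : Group T) with mul_comm := fun a b => hm.is_comm.comm a b }
    have h1 : (Nat.card T).Prime := IsSimpleGroup.prime_card
    rw [hc] at h1
    exact absurd h1 (by norm_num)
  have h43 := (S5577.result hna hJ).2.2.2.2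
  have h37 := (S5577.result hna hJ).2.2.2.1
  have : Fact (Nat.Prime 43) := ⟨by norm_num⟩
  have : Fact (Nat.Prime 37) := ⟨by norm_num⟩
  have hc43 : ∀ x : T, orderOf x = 43 → Nat.card (centralizer ({x} : Set T)) = 43 := fun x hx =>
    H257.El.Row.card_cent_of_sylow (by rw [hc]; norm_num) (by rw [hc]; norm_num) (fun U => (h43 U).1) hx
  have hc37 : ∀ x : T, orderOf x = 37 → Nat.card (centralizer ({x} : Set T)) = 37 := fun x hx =>
    H257.El.Row.card_cent_of_sylow (by rw [hc]; norm_num) (by rw [hc]; norm_num) (fun U => (h37 U).1) hx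
  have r43 : RealP T 43 := by
    obtain ⟨x, hx⟩ := exists_prime_orderOf_dvd_card' (G := T) 43 (by rw [hc]; norm_num)
    exact ⟨x, hx, (norm_of_cent (r := 43) (n := 86775571046077562880 / 43) (c := 1) (e := 14) (by norm_num)
      (by rw [hc]) (by norm_num) hx (by rw [hc43 x hx]) (by norm_num) (by norm_num)).2 (by decide)⟩
  have r37 : RealP T 37 := by
    obtain ⟨x, hx⟩ := exists_prime_orderOf_dvd_card' (G := T) 37 (by rw [hc]; norm_num)
    exact ⟨x, hx, (norm_of_cent (r := 37) (n := 86775571046077562880 / 37) (c := 1) (e := 12) (by norm_num)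
      (by rw [hc]) (by norm_num) hx (by rw [hc37 x hx]) (by norm_num) (by norm_num)).2 (by decide)⟩
  refine row_of_empty (r := 43) (ss := [37])
    (l := [(2, 21), (3, 3), (5, 1), (7, 1), (11, 3), (23, 1), (29, 1), (31, 1), (37, 1), (43, 1)]) tab known hc
    (by norm_num) r43 ?_ (by decide +kernel)
  intro s hs
  rw [List.mem_singleton] at hs
  subst hs
  exact ⟨by norm_num, r37, H257.El.noOrd_of_cent (by norm_num) hc43 (by norm_num) (by norm_num)⟩

end Cfsg.Agent.H234.OdmJ4
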